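import Mathlib
import Cfsg.Agent.Lib.Helper24.ES3.Defs

set_option autoImplicit false

namespace Cfsg.Agent.Lib.Helper24.ES3

variable {G : Type*} [Group G]

/-- extracting a root -/
theorem E0_pow_root {x y : G} {p k : ℕ} (hp : p.Prime) (hx : x ^ p = 1) (hk : ¬ p ∣ k)
    (h : x ^ k = y) : ∃ m : ℕ, x = y ^ m := by
  have hc : Nat.Coprime k p := ((Nat.Prime.coprime_iff_not_dvd hp).2 hk).symm
  obtain ⟨m, -, hm⟩ := Nat.exists_mul_mod_eq_one_of_coprime hc hp.one_lt
  refine ⟨m, ?_⟩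
  rw [← h, ← pow_mul, pow_eq_pow_mod (k * m) hx, hm, pow_one]

theorem E0_pow_val_add {x : G} {p : ℕ} [NeZero p] (hx : x ^ p = 1) (i j : ZMod p) :
    x ^ (i + j).val = x ^ i.val * x ^ j.val := by
  rw [ZMod.val_add, ← pow_eq_pow_mod _ hx, pow_add]

theorem E0_val_not_dvd {p : ℕ} [NeZero p] {i : ZMod p} (hi : i ≠ 0) : ¬ p ∣ i.val := by
  intro h
  apply hi
  have := Nat.eq_zero_of_dvd_of_lt h (ZMod.val_lt i)
  exact (ZMod.val_eq_zero i).1 this

/-- E0 -/
theorem coord_equiv {p : ℕ} [Fact p.Prime] {A : Subgroup G} {z w : G}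
    (hz : z ∈ A) (hw : w ∈ A) (hzp : z ^ p = 1) (hwp : w ^ p = 1) (hzw : z * w = w * z)
    (hz1 : z ≠ 1) (hwz : ∀ k : ℕ, w ≠ z ^ k)
    (hgen : ∀ x ∈ A, ∃ i j : ℕ, x = w ^ i * z ^ j) :
    ∃ e : Multiplicative (ZMod p × ZMod p) ≃* ↥A, ∀ i j : ZMod p,
      ((e (Multiplicative.ofAdd (i, j)) : ↥A) : G) = w ^ i.val * z ^ j.val := by
  have hp : p.Prime := Fact.out
  have hc : Commute z w := hzw
  let f : Multiplicative (ZMod p × ZMod p) →* ↥A :=
    { toFun := fun t => ⟨w ^ (Multiplicative.toAdd t).1.val * z ^ (Multiplicative.toAdd t).2.val,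
        A.mul_mem (A.pow_mem hw _) (A.pow_mem hz _)⟩
      map_one' := by
        apply Subtype.ext
        simp
      map_mul' := by
        intro s t
        apply Subtype.ext
        show w ^ ((Multiplicative.toAdd s).1 + (Multiplicative.toAdd t).1).val *
            z ^ ((Multiplicative.toAdd s).2 + (Multiplicative.toAdd t).2).val = _ * _ * (_ * _)
        rw [E0_pow_val_add hwp, E0_pow_val_add hzp]
        have h1 : Commute (z ^ (Multiplicative.toAdd s).2.val) (w ^ (Multiplicative.toAdd t).1.val) :=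
          hc.pow_pow _ _
        rw [mul_assoc, mul_assoc, ← mul_assoc (w ^ (Multiplicative.toAdd t).1.val),
          ← h1.eq, mul_assoc] }
  have hinj : Function.Injective f := by
    rw [injective_iff_map_eq_one]
    intro t ht
    have ht' : w ^ (Multiplicative.toAdd t).1.val * z ^ (Multiplicative.toAdd t).2.val = 1 :=
      congrArg Subtype.val ht
    obtain ⟨i, j⟩ := t
    change w ^ i.val * z ^ j.val = 1 at ht'
    have hi : i = 0 := by
      by_contra hi
      have h1 : w ^ i.val = z ^ (p - j.val) := by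
        have h2 : z ^ j.val * z ^ (p - j.val) = 1 := by
          rw [← pow_add, Nat.add_sub_cancel' (ZMod.val_lt j).le, hzp]
        rw [eq_comm, ← mul_right_inj (z ^ j.val), h2, (hc.pow_pow _ _).eq, ht']
      obtain ⟨m, hm⟩ := E0_pow_root hp hwp (E0_val_not_dvd hi) h1
      rw [← pow_mul] at hm
      exact hwz _ hm
    subst hi
    have hj : j = 0 := by
      by_contra hj
      rw [ZMod.val_zero, pow_zero, one_mul] at ht'
      obtain ⟨m, hm⟩ := E0_pow_root hp hzp (E0_val_not_dvd hj) ht'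
      rw [one_pow] at hm
      exact hz1 hm
    subst hj
    rfl
  have hsurj : Function.Surjective f := by
    rintro ⟨x, hx⟩
    obtain ⟨i, j, rfl⟩ := hgen x hx
    refine ⟨Multiplicative.ofAdd ((i : ZMod p), (j : ZMod p)), ?_⟩
    apply Subtype.ext
    show w ^ ((i : ZMod p)).val * z ^ ((j : ZMod p)).val = _
    rw [ZMod.val_natCast, ZMod.val_natCast, ← pow_eq_pow_mod _ hwp, ← pow_eq_pow_mod _ hzp]
  exact ⟨MulEquiv.ofBijective f ⟨hinj, hsurj⟩, fun i j => rfl⟩

end Cfsg.Agent.Lib.Helper24.ES3
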