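import Mathlib
import Cfsg.Agent.Lib.Helper24.ES3.Defs
import Cfsg.Agent.Lib.Helper37.ES3.E0

set_option autoImplicit false

namespace Cfsg.Agent.Lib.Helper24.ES3

variable {G : Type*} [Group G]

/-- the transvection `(i, j) ↦ (i + j, j)` -/
def E1_T (p : ℕ) : (ZMod p × ZMod p) ≃+ (ZMod p × ZMod p) where
  toFun t := (t.1 + t.2, t.2)
  invFun t := (t.1 - t.2, t.2)
  left_inv t := by simp
  right_inv t := by simp
  map_add' s t := by
    ext
    · simp only [Prod.fst_add, Prod.snd_add]; ring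
    · rfl

/-- E1 -/
theorem exists_transvection {p : ℕ} [Fact p.Prime] {A : Subgroup G} {z w : G}
    (hz : z ∈ A) (hw : w ∈ A) (hzp : z ^ p = 1) (hwp : w ^ p = 1) (hzw : z * w = w * z)
    (hz1 : z ≠ 1) (hwz : ∀ k : ℕ, w ≠ z ^ k)
    (hgen : ∀ x ∈ A, ∃ i j : ℕ, x = w ^ i * z ^ j) :
    ∃ φ : MulAut ↥A, orderOf φ = p ∧ ((φ ⟨z, hz⟩ : ↥A) : G) = z * w ∧ ((φ ⟨w, hw⟩ : ↥A) : G) = w := by
  have hp : p.Prime := Fact.out
  obtain ⟨e, he⟩ := coord_equiv hz hw hzp hwp hzw hz1 hwz hgen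
  let φ : MulAut ↥A := e.symm.trans ((AddEquiv.toMultiplicative (E1_T p)).trans e)
  have hφ : ∀ i j : ZMod p, φ (e (Multiplicative.ofAdd (i, j))) = e (Multiplicative.ofAdd (i + j, j)) := by
    intro i j
    show e ((AddEquiv.toMultiplicative (E1_T p)) (e.symm (e (Multiplicative.ofAdd (i, j))))) = _
    rw [MulEquiv.symm_apply_apply]
    rfl
  have hpow : ∀ (k : ℕ) (i j : ZMod p),
      (φ ^ k) (e (Multiplicative.ofAdd (i, j))) = e (Multiplicative.ofAdd (i + k * j, j)) := by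
    intro k
    induction k with
    | zero => intro i j; simp
    | succ k ih =>
      intro i j
      rw [pow_succ', MulAut.mul_apply, ih, hφ]
      congr 3
      push_cast
      ring
  have hez : e (Multiplicative.ofAdd ((0 : ZMod p), (1 : ZMod p))) = ⟨z, hz⟩ := by
    apply Subtype.ext
    rw [he, ZMod.val_zero, ZMod.val_one, pow_zero, pow_one, one_mul]
  have hew : e (Multiplicative.ofAdd ((1 : ZMod p), (0 : ZMod p))) = ⟨w, hw⟩ := by
    apply Subtype.ext
    rw [he, ZMod.val_zero, ZMod.val_one, pow_zero, pow_one, mul_one]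
  have hφz : ((φ ⟨z, hz⟩ : ↥A) : G) = z * w := by
    rw [← hez, hφ, he, zero_add, ZMod.val_one, pow_one, pow_one, hzw]
  have hφw : ((φ ⟨w, hw⟩ : ↥A) : G) = w := by
    rw [← hew, hφ, he, add_zero, ZMod.val_one, ZMod.val_zero, pow_one, pow_zero, mul_one]
  refine ⟨φ, ?_, hφz, hφw⟩
  apply orderOf_eq_prime
  · ext a
    obtain ⟨⟨i, j⟩, rfl⟩ := e.surjective a
    have := hpow p i j
    rw [ZMod.natCast_self, zero_mul, add_zero] at this
    rw [MulAut.one_apply]
    exact congrArg Subtype.val this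
  · intro h1
    rw [h1, MulAut.one_apply] at hφz
    have : w = 1 := by
      have h2 : z = z * w := hφz
      exact (mul_eq_left.1 h2.symm)
    exact hwz 0 (by rw [this, pow_zero])

end Cfsg.Agent.Lib.Helper24.ES3
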